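import Groth.Agent.Ega3B.TwistCoh
import Groth.Agent.FormalB.TwistFrac
import Groth.Agent.Ega1.QCohLoc

/-!
# The modules `M(n)~` on `Proj` are quasi-coherent

For a graded ring `A` and a graded `A`-module `M` (no finiteness):
* `isLocAt_tilde`: `Γ(M(n)~, D(r)) = Γ(M(n)~, D_+(f))_r` for a function `r` on `D_+(f)`;
* `isQCoh_tilde`: `M(n)~` is quasi-coherent.
-/

set_option autoImplicit false
universe u

open CategoryTheory CategoryTheory.Limits AlgebraicGeometry TopologicalSpace Opposite TopCat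

namespace Groth.Agent.Ega2.H261.TildeQCoh

open Groth.Agent.FormalB.GrTildeSect Groth.Agent.FormalB.TwistFrac

variable {R A : Type u} [CommRing R] [CommRing A] [Algebra R A] {𝒜 : ℕ → Submodule R A} [GradedAlgebra 𝒜]
variable {M : Type u} [AddCommGroup M] [Module R M] [Module A M] {ℳ : ℕ → Submodule R M} [SetLike.GradedSMul 𝒜 ℳ]

/-- The value of a function at a point: the two descriptions agree. -/
theorem oval_eq_ev {U : (Proj 𝒜).Opens} (c : Γ(Proj 𝒜, U)) (x : U) :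
    oval c x = Divis.ProjPic.ev c x.1 x.2 := rfl

theorem oval_pow {U : (Proj 𝒜).Opens} (c : Γ(Proj 𝒜, U)) (x : U) (n : ℕ) :
    oval (c ^ n) x = oval c x ^ n :=
  Ega3B.TwistCoh.ev_pow c x.1 x.2 n

theorem pow_mem' {d : ℕ} {f : A} (hf : f ∈ 𝒜 d) (l : ℕ) : f ^ l ∈ 𝒜 (l * d) := by
  simpa using SetLike.pow_mem_graded l hf

variable [DirectSum.Decomposition ℳ]

/-- Every section of `M(n)~` over an open equal to `D_+(f)` is a fraction `m / f ^ k`. -/
theorem exists_gfrac_basicOpen (n : ℤ) {d : ℕ} (hd : 0 < d) {f : A} (hf : f ∈ 𝒜 d) {U : (Proj 𝒜).Opens}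
    (hU : U = Proj.basicOpen 𝒜 f) (s : Γ(GrTilde.tilde 𝒜 ℳ n, U)) :
    ∃ (k : ℕ) (m : M) (hm : m ∈ zdeg ℳ (((k * d : ℕ) : ℤ) + n)) (hV : NV U (f ^ k)),
      s = gfrac n U (pow_mem' hf k) hV hm := by
  subst hU
  obtain ⟨k, m, hm, h⟩ := exists_frac_basicOpen n hd hf (show GrTilde.sect 𝒜 ℳ n _ from s)
  exact ⟨k, m, hm, (NV.basicOpen f).pow k, gval_ext fun x => h x⟩

theorem isLocAt_tilde (n : ℤ) {d : ℕ} (hd : 0 < d) {f : A} (hf : f ∈ 𝒜 d)
    (r : Γ(Proj 𝒜, Proj.basicOpen 𝒜 f)) :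
    Ega1.QCohLoc.IsLocAt (GrTilde.tilde 𝒜 ℳ n) (Proj.basicOpen 𝒜 f) r where
  surj s := by
    obtain ⟨k, c, hc, hr⟩ := Divis.ProjPic.exists_frac hf hd rfl r
    have hU := Ega3B.TwistCoh.basicOpen_eq rfl r hr
    have hfc : f * c ∈ 𝒜 (d + k * d) := SetLike.mul_mem_graded hf hc
    obtain ⟨l, m, hm, hV, rfl⟩ := exists_gfrac_basicOpen n (by omega) hfc hU s
    have hm' : m ∈ zdeg ℳ ((((k + 1) * l * d : ℕ) : ℤ) + n) := by
      have e : (((k + 1) * l * d : ℕ) : ℤ) + n = ((l * (d + k * d) : ℕ) : ℤ) + n := by push_cast; ring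
      rw [e]; exact hm
    refine ⟨l, gfrac n (Proj.basicOpen 𝒜 f) (pow_mem' hf ((k + 1) * l)) ((NV.basicOpen f).pow _) hm',
      gval_ext fun x => ?_⟩
    have hxf : f ∉ x.1.asHomogeneousIdeal := (Proj 𝒜).basicOpen_le r x.2
    have h1 : oval (Ega1.QCohLoc.resO ((Proj 𝒜).basicOpen_le r) r ^ l) x =
        Localization.mk c ⟨f ^ k, pow_notMem hxf k⟩ ^ l := by
      rw [oval_pow]
      exact congrArg (· ^ l) (hr x.1 hxf (pow_notMem hxf k))
    refine Eq.trans ?_ (gval_smul _ _ x).symm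
    rw [h1, gval_gfrac, Localization.mk_pow]
    refine Eq.trans ?_ (LocalizedModule.mk_smul_mk _ _ _ _).symm
    refine mk_eq_of_smul_eq 1 (one_notMem _) ?_
    simp only [SubmonoidClass.coe_pow, smul_smul]
    congr 1
    ring
  inj t ht := by
    obtain ⟨k, c, hc, hr⟩ := Divis.ProjPic.exists_frac hf hd rfl r
    have hU := Ega3B.TwistCoh.basicOpen_eq rfl r hr
    have hfc : f * c ∈ 𝒜 (d + k * d) := SetLike.mul_mem_graded hf hc
    obtain ⟨l, m, hm, hV, rfl⟩ := exists_gfrac_basicOpen n hd hf rfl t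
    obtain ⟨N, hN⟩ := exists_pow_smul_eq_zero 𝒜 (ℳ := ℳ) (d := d + k * d) (by omega) hfc hm (by
      intro x hx
      have hx' : x ∈ (Proj 𝒜).basicOpen r := by rw [hU]; exact hx
      have h1 : gval (gfrac n (Proj.basicOpen 𝒜 f) (pow_mem' hf l) hV hm)
          ⟨x, (Proj 𝒜).basicOpen_le r hx'⟩ = 0 :=
        congrArg (fun z : Γ(GrTilde.tilde 𝒜 ℳ n, (Proj 𝒜).basicOpen r) => gval z ⟨x, hx'⟩) ht
      rw [gval_gfrac, ← LocalizedModule.zero_mk (1 : x.asHomogeneousIdeal.toIdeal.primeCompl)] at h1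
      obtain ⟨u, hu⟩ := LocalizedModule.mk_eq.mp h1
      refine ⟨u.1, u.2, ?_⟩
      simpa [Submonoid.smul_def] using hu)
    refine ⟨N, gval_ext fun x => ?_⟩
    have hxf : f ∉ x.1.asHomogeneousIdeal := x.2
    have h1 : oval (r ^ N) x = Localization.mk c ⟨f ^ k, pow_notMem hxf k⟩ ^ N := by
      rw [oval_pow]
      exact congrArg (· ^ N) (hr x.1 hxf (pow_notMem hxf k))
    refine (gval_smul _ _ x).trans ?_
    rw [h1, gval_gfrac, Localization.mk_pow]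
    refine (LocalizedModule.mk_smul_mk _ _ _ _).trans ?_
    rw [gval_zero, ← LocalizedModule.zero_mk (1 : x.1.asHomogeneousIdeal.toIdeal.primeCompl)]
    refine mk_eq_of_smul_eq (f ^ N) (pow_notMem hxf N) ?_
    simp only [smul_zero, smul_smul]
    rw [one_mul, ← mul_pow]
    exact hN

/-- The modules `M(n)~` on `Proj` are quasi-coherent. -/
theorem isQCoh_tilde (n : ℤ) : Coh.IsQCoh (GrTilde.tilde 𝒜 ℳ n) := by
  refine Ega1.QCohLoc.isQCoh_of_affine_cover _ (fun i : (Σ m : ℕ, {f : A // f ∈ 𝒜 m ∧ 0 < m}) =>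
    Proj.basicOpen 𝒜 i.2.1) Ega3B.TwistCoh.iSup_basicOpen_pos
    (fun i => Proj.isAffineOpen_basicOpen 𝒜 i.2.1 i.2.2.1 i.2.2.2)
    (fun i r => isLocAt_tilde n i.2.2.2 i.2.2.1 r)

end Groth.Agent.Ega2.H261.TildeQCoh
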